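import Mathlib
import Cfsg.Agent.Lib.Helper73.AB.Defs

/-!
# Project AB (S2506), package NUM (helper15): arithmetic of `fmax`.
-/

set_option autoImplicit false

namespace Cfsg.Agent.Lib.Helper15.AB

open Cfsg.Agent.Lib.Helper73.AB

theorem fmax_add9 (n : ℕ) : fmax (n + 9) = 3 * fmax (n + 6) := rfl

/-- `fmax n = 3 * fmax (n - 3)` for `n ≥ 9`. -/
theorem fmax_sub3 {n : ℕ} (hn : 9 ≤ n) : fmax n = 3 * fmax (n - 3) := by
  obtain ⟨k, rfl⟩ : ∃ k, n = k + 9 := ⟨n - 9, by omega⟩
  rw [fmax_add9, show k + 9 - 3 = k + 6 by omega]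

theorem fmax_three (n : ℕ) : 3 * fmax n ≤ fmax (n + 3) := by
  by_cases h : 6 ≤ n
  · rw [fmax_sub3 (n := n + 3) (by omega), show n + 3 - 3 = n by omega]
  · have hall : ∀ n < 6, 3 * fmax n ≤ fmax (n + 3) := by decide
    exact hall n (by omega)

theorem fmax_succ (n : ℕ) : fmax n ≤ fmax (n + 1) := by
  induction n using Nat.strong_induction_on with
  | _ n ih =>
    by_cases h : 9 ≤ n
    · rw [fmax_sub3 h, fmax_sub3 (n := n + 1) (by omega), show n + 1 - 3 = n - 3 + 1 by omega]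
      have := ih (n - 3) (by omega)
      omega
    · have hall : ∀ n < 9, fmax n ≤ fmax (n + 1) := by decide
      exact hall n (by omega)

theorem fmax_mono : Monotone fmax := monotone_nat_of_le_succ fmax_succ

/-- `fmax` is positive. -/
theorem fmax_pos (n : ℕ) : 0 < fmax n := by
  have := fmax_mono (Nat.zero_le n)
  have h0 : fmax 0 = 1 := rfl
  omega

theorem fmax_pow (j n : ℕ) : 3 ^ j * fmax n ≤ fmax (n + 3 * j) := by
  induction j with
  | zero => simp
  | succ j ih =>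
    have := fmax_three (n + 3 * j)
    calc 3 ^ (j + 1) * fmax n = 3 * (3 ^ j * fmax n) := by ring
      _ ≤ 3 * fmax (n + 3 * j) := Nat.mul_le_mul_left 3 ih
      _ ≤ fmax (n + 3 * j + 3) := this
      _ = fmax (n + 3 * (j + 1)) := by rw [show n + 3 * j + 3 = n + 3 * (j + 1) by ring]

theorem lt_three_pow (j : ℕ) (hj : 2 ≤ j) : 3 * j + 2 < 3 ^ j := by
  induction j, hj using Nat.le_induction with
  | base => norm_num
  | succ j hj ih => rw [pow_succ]; omega

/-- for `m ≥ 6`: `m * fmax (n - m) < fmax n`. -/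
theorem fmax_big (m n : ℕ) (hm : 6 ≤ m) (hmn : m ≤ n) : m * fmax (n - m) < fmax n := by
  have hj : 2 ≤ m / 3 := by omega
  have h1 := fmax_pow (m / 3) (n - 3 * (m / 3))
  rw [show n - 3 * (m / 3) + 3 * (m / 3) = n by omega] at h1
  have h2 : fmax (n - m) ≤ fmax (n - 3 * (m / 3)) := fmax_mono (by omega)
  have h3 := lt_three_pow (m / 3) hj
  have h4 : m < 3 ^ (m / 3) := by omega
  have hp := fmax_pos (n - m)
  calc m * fmax (n - m) < 3 ^ (m / 3) * fmax (n - m) := Nat.mul_lt_mul_of_pos_right h4 hp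
    _ ≤ 3 ^ (m / 3) * fmax (n - 3 * (m / 3)) := Nat.mul_le_mul_left _ h2
    _ ≤ fmax n := h1

/-- the statement of NUM for fixed `m n κ`. -/
def numP (m n κ : ℕ) : Prop :=
  1 ≤ m → m ≤ n → 3 ≤ n → κ ≤ m → (m % 4 = 2 → 2 * κ ≤ m) →
    fmax n ≤ κ * fmax (n - m) →
    κ = m ∧ fmax n = m * fmax (n - m) ∧
      ((m = 3 ∧ n ≠ 4 ∧ n ≠ 5 ∧ n ≠ 8) ∨ (m = 4 ∧ (n = 4 ∨ (7 ≤ n ∧ n % 3 ≠ 0))) ∨
        (m = 5 ∧ n = 5))

instance numP_decidable (m n κ : ℕ) : Decidable (numP m n κ) := by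
  unfold numP; infer_instance

set_option maxRecDepth 100000 in
theorem num_small : ∀ n < 14, ∀ m < 6, ∀ κ < 6, numP m n κ := by decide

theorem num_all (m n κ : ℕ) (hm : m < 6) : numP m n κ := by
  induction n using Nat.strong_induction_on with
  | _ n ih =>
    by_cases hn : n < 14
    · by_cases hκ : κ < 6
      · exact num_small n hn m hm κ hκ
      · intro _ _ _ hκm
        omega
    · intro hm1 hmn hn3 hκm h4 hle
      have e1 : fmax n = 3 * fmax (n - 3) := fmax_sub3 (by omega)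
      have e2 : fmax (n - m) = 3 * fmax (n - 3 - m) := by
        rw [fmax_sub3 (n := n - m) (by omega), show n - m - 3 = n - 3 - m by omega]
      have hle' : fmax (n - 3) ≤ κ * fmax (n - 3 - m) := by
        rw [e1, e2] at hle
        have h' : 3 * fmax (n - 3) ≤ 3 * (κ * fmax (n - 3 - m)) := by
          calc 3 * fmax (n - 3) ≤ κ * (3 * fmax (n - 3 - m)) := hle
            _ = 3 * (κ * fmax (n - 3 - m)) := by ring
        exact Nat.le_of_mul_le_mul_left h' (by norm_num)
      obtain ⟨h1, h2, h3⟩ := ih (n - 3) (by omega) hm1 (by omega) (by omega) hκm h4 hle'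
      refine ⟨h1, ?_, ?_⟩
      · rw [e1, e2, h2]; ring
      · rcases h3 with ⟨rfl, _⟩ | ⟨rfl, h⟩ | ⟨rfl, h⟩
        · left; exact ⟨rfl, by omega, by omega, by omega⟩
        · right; left
          refine ⟨rfl, Or.inr ⟨by omega, ?_⟩⟩
          rcases h with h | ⟨_, h⟩
          · omega
          · omega
        · omega

/-- **(NUM)** -/
theorem lemAbNum : LemAbNum := by
  intro m n κ hm1 hmn hn3 hκm h4 hle
  by_cases hm : m < 6
  · exact num_all m n κ hm hm1 hmn hn3 hκm h4 hle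
  · exfalso
    have h1 := fmax_big m n (by omega) hmn
    have h2 : κ * fmax (n - m) ≤ m * fmax (n - m) := Nat.mul_le_mul_right _ hκm
    omega

/-- **(NUMG)** -/
theorem lemAbNumG : LemAbNumG := by
  intro n
  induction n using Nat.strong_induction_on with
  | _ n ih =>
    intro hn3
    by_cases hn : n < 9
    · have hall : ∀ n < 9, 3 ≤ n → Cfsg.Agent.S2505.gmax n < 2 * fmax n := by decide
      exact hall n hn hn3
    · have e1 : fmax n = 3 * fmax (n - 3) := fmax_sub3 (by omega)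
      have e2 : Cfsg.Agent.S2505.gmax n = 3 * Cfsg.Agent.S2505.gmax (n - 3) := by
        obtain ⟨k, rfl⟩ : ∃ k, n = k + 5 := ⟨n - 5, by omega⟩
        rw [Cfsg.Agent.S2505.gmax_add5, show k + 5 - 3 = k + 2 by omega]
      have := ih (n - 3) (by omega) (by omega)
      rw [e1, e2]; omega

end Cfsg.Agent.Lib.Helper15.AB

example : Cfsg.Agent.Lib.Helper73.AB.LemAbNum := Cfsg.Agent.Lib.Helper15.AB.lemAbNum
example : Cfsg.Agent.Lib.Helper73.AB.LemAbNumG := Cfsg.Agent.Lib.Helper15.AB.lemAbNumG
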