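import Mathlib
import Cfsg.Agent.Lib.Helper73.AB.Defs
import Cfsg.Agent.S2504
import Cfsg.Agent.Lib.Helper15.AB.LemAbNum

/-!
# Project AB (S2506), package BOUND (helper15): abelian subgroups of `Alt(Ω)` have order at
most `fmax (card Ω)`.
-/

set_option autoImplicit false

namespace Cfsg.Agent.Lib.Helper15.AB

open Cfsg.Agent.Lib.Helper73.AB Equiv
open Cfsg.Agent.S2505 (gmax gmax_pos gmax_mul gmax_3k abelian_bound)
open Cfsg.Agent.S2504 (orbit_bound orbit_two_bound three_dvd_of_orbits numeric)

theorem fmax_3k : ∀ k : ℕ, fmax (3 * k) = 3 ^ k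
  | 0 => by decide
  | 1 => by decide
  | 2 => by decide
  | (k + 3) => by
    rw [show 3 * (k + 3) = 3 * k + 9 by ring, fmax_add9, show 3 * k + 6 = 3 * (k + 2) by ring,
      fmax_3k (k + 2)]
    ring

theorem fmax_3k4 : ∀ k : ℕ, fmax (3 * k + 4) = 4 * 3 ^ k
  | 0 => by decide
  | 1 => by decide
  | (k + 2) => by
    rw [show 3 * (k + 2) + 4 = 3 * k + 1 + 9 by ring, fmax_add9,
      show 3 * k + 1 + 6 = 3 * (k + 1) + 4 by ring, fmax_3k4 (k + 1)]
    ring

theorem fmax_3k8 : ∀ k : ℕ, fmax (3 * k + 8) = 16 * 3 ^ k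
  | 0 => by decide
  | (k + 1) => by
    rw [show 3 * (k + 1) + 8 = 3 * k + 2 + 9 by ring, fmax_add9,
      show 3 * k + 2 + 6 = 3 * k + 8 by ring, fmax_3k8 k]
    ring

section Orbit

variable {α : Type} [Fintype α] [DecidableEq α]

omit [DecidableEq α] in
theorem orbit_card_le (A : Subgroup (Perm α)) (a : α) :
    Nat.card (MulAction.orbit A a) ≤ Fintype.card α := by
  classical
  rw [Nat.card_eq_fintype_card]
  have := Fintype.card_subtype_le (fun b => b ∈ MulAction.orbit A a)
  simpa using this

omit [DecidableEq α] in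
theorem orbit_card_pos (A : Subgroup (Perm α)) (a : α) :
    1 ≤ Nat.card (MulAction.orbit A a) := by
  classical
  rw [Nat.card_eq_fintype_card]
  exact Fintype.card_pos_iff.mpr ⟨⟨a, MulAction.mem_orbit_self a⟩⟩

theorem bound_two (hcard : Fintype.card α = 2) (A : Subgroup (Perm α))
    (hA : IsMulCommutative A) (heven : ∀ σ ∈ A, Perm.sign σ = 1) : Nat.card A ≤ 1 := by
  classical
  have hne : Nonempty α := Fintype.card_pos_iff.mp (by omega)
  obtain ⟨a⟩ := hne
  have hle := orbit_card_le A a
  have hpos := orbit_card_pos A a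
  rw [hcard] at hle
  by_cases h2 : Nat.card (MulAction.orbit A a) = 2
  · have := orbit_two_bound A hA heven a h2
    rw [hcard] at this
    have e : gmax (2 - 2) = 1 := by decide
    omega
  · have h1 := orbit_bound A hA a
    rw [hcard] at h1
    have hm : Nat.card (MulAction.orbit A a) = 1 := by omega
    rw [hm] at h1
    have e : gmax (2 - 1) = 1 := by decide
    omega

theorem bound_five (hcard : Fintype.card α = 5) (A : Subgroup (Perm α))
    (hA : IsMulCommutative A) (heven : ∀ σ ∈ A, Perm.sign σ = 1) : Nat.card A ≤ 5 := by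
  classical
  by_cases h3 : ∀ a : α, Nat.card (MulAction.orbit A a) = 3
  · have := three_dvd_of_orbits (G := A) h3
    rw [hcard] at this
    omega
  · push Not at h3
    obtain ⟨a, ha⟩ := h3
    have hle := orbit_card_le A a
    have hpos := orbit_card_pos A a
    rw [hcard] at hle
    by_cases h2 : Nat.card (MulAction.orbit A a) = 2
    · have := orbit_two_bound A hA heven a h2
      rw [hcard] at this
      have e : gmax (5 - 2) = 3 := by decide
      omega
    · have h1 := orbit_bound A hA a
      rw [hcard] at h1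
      have hm : Nat.card (MulAction.orbit A a) = 1 ∨ Nat.card (MulAction.orbit A a) = 4 ∨
          Nat.card (MulAction.orbit A a) = 5 := by omega
      rcases hm with hm | hm | hm <;> rw [hm] at h1
      · have e : gmax (5 - 1) = 4 := by decide
        omega
      · have e : gmax (5 - 4) = 1 := by decide
        omega
      · have e : gmax (5 - 5) = 1 := by decide
        omega

theorem bound_gen (j : ℕ) (hcard : Fintype.card α = 3 * j + 8) (A : Subgroup (Perm α))
    (hA : IsMulCommutative A) (heven : ∀ σ ∈ A, Perm.sign σ = 1) :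
    Nat.card A ≤ 16 * 3 ^ j := by
  classical
  by_contra hlt
  push Not at hlt
  have h23 : ∀ a : α, Nat.card (MulAction.orbit A a) = 2 ∨
      Nat.card (MulAction.orbit A a) = 3 := by
    intro a
    by_contra hne
    push Not at hne
    have h1 := orbit_bound A hA a
    rw [hcard] at h1
    have hle := orbit_card_le A a
    rw [hcard] at hle
    have h2 := numeric j _ (orbit_card_pos A a) hle hne.1 hne.2
    omega
  obtain ⟨a, ha⟩ : ∃ a : α, Nat.card (MulAction.orbit A a) = 2 := by
    by_contra hno
    push Not at hno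
    have h3 : 3 ∣ Fintype.card α :=
      three_dvd_of_orbits (G := A) (fun a => (h23 a).resolve_left (hno a))
    rw [hcard] at h3
    omega
  have h := orbit_two_bound A hA heven a ha
  rw [hcard, show 3 * j + 8 - 2 = 3 * (j + 2) by omega, (gmax_3k (j + 2)).1] at h
  have : 3 ^ (j + 2) = 9 * 3 ^ j := by ring
  omega

end Orbit

/-- **(BOUND)** -/
theorem lemAbBound : LemAbBound := by
  intro Ω _ _ A hAalt hcomm
  have hA : IsMulCommutative A :=
    isMulCommutative_iff.mpr (fun a b => Subtype.ext (hcomm a.1 a.2 b.1 b.2))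
  have heven : ∀ σ ∈ A, Perm.sign σ = 1 := fun σ hσ => Perm.mem_alternatingGroup.mp (hAalt hσ)
  have hgen := abelian_bound (Fintype.card Ω) Ω rfl A hA
  have hcases : (∃ k, Fintype.card Ω = 3 * k) ∨ Fintype.card Ω = 1 ∨
      (∃ k, Fintype.card Ω = 3 * k + 4) ∨ Fintype.card Ω = 2 ∨ Fintype.card Ω = 5 ∨
      (∃ j, Fintype.card Ω = 3 * j + 8) := by
    generalize Fintype.card Ω = n
    have h3 : n % 3 = 0 ∨ n % 3 = 1 ∨ n % 3 = 2 := by omega
    rcases h3 with h | h | h
    · left; exact ⟨n / 3, by omega⟩
    · by_cases h1 : n = 1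
      · right; left; exact h1
      · right; right; left; exact ⟨(n - 4) / 3, by omega⟩
    · by_cases h2 : n = 2
      · right; right; right; left; exact h2
      · by_cases h5 : n = 5
        · right; right; right; right; left; exact h5
        · right; right; right; right; right; exact ⟨(n - 8) / 3, by omega⟩
  rcases hcases with ⟨k, hk⟩ | h1 | ⟨k, hk⟩ | h2 | h5 | ⟨j, hj⟩
  · rw [hk] at hgen ⊢
    rw [fmax_3k]
    rw [(gmax_3k k).1] at hgen
    exact hgen
  · rw [h1] at hgen ⊢
    exact hgen
  · rw [hk] at hgen ⊢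
    rw [fmax_3k4]
    rw [show 3 * k + 4 = 3 * (k + 1) + 1 by ring, (gmax_3k k).2.2] at hgen
    exact hgen
  · rw [h2]
    exact bound_two h2 A hA heven
  · rw [h5]
    exact bound_five h5 A hA heven
  · rw [hj, fmax_3k8]
    exact bound_gen j hj A hA heven

end Cfsg.Agent.Lib.Helper15.AB

example : Cfsg.Agent.Lib.Helper73.AB.LemAbBound := Cfsg.Agent.Lib.Helper15.AB.lemAbBound
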